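import Mathlib
import Cfsg.Agent.Lib.Helper5.CS4.Defs

/-!
# CS4 (S4146), package [NILASM]

Normal `p`- and `q`-complements and only `p`, `q` dividing class sizes give nilpotency:
`N_p ⊓ N_q` is central and `G ⧸ N_p × G ⧸ N_q` is a product of a `p`-group and a `q`-group.
-/

set_option autoImplicit false

namespace Cfsg.Agent.Lib.Helper45.CS4

open Cfsg.Agent.Lib.Helper5.CS4

universe u

/-- An element whose order is prime to `p` and `q` is central, when only `p` and `q` divide
class sizes. -/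
theorem nilasm_central (hB4 : PkgSylCentral.{u}) (hPP : PkgPP.{u}) {G : Type u} [Group G]
    [Finite G] (p q : ℕ)
    (hcls : ∀ (x : G) (t : ℕ), t.Prime → t ∣ cidx x → t = p ∨ t = q)
    (x : G) (hxp : ¬ p ∣ orderOf x) (hxq : ¬ q ∣ orderOf x) : x ∈ Subgroup.center G := by
  by_contra hx
  obtain ⟨i, t, k, ht, ho, hc⟩ := hPP x hx
  apply hc
  refine hB4 t ht ?_ (x ^ i) k ho
  intro y hty
  have hdvd : orderOf (x ^ i) ∣ orderOf x := orderOf_pow_dvd i
  rcases Nat.eq_zero_or_pos k with hk | hk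
  · apply hc
    rw [hk, pow_zero, orderOf_eq_one_iff] at ho
    rw [ho]
    exact Subgroup.one_mem _
  · have htx : t ∣ orderOf x := by
      refine dvd_trans ?_ hdvd
      rw [ho]
      exact dvd_pow_self t hk.ne'
    rcases hcls y t ht hty with h | h
    · rw [h] at htx
      exact hxp htx
    · rw [h] at htx
      exact hxq htx

/-- **[NILASM]** (from [B4] and [PP]) -/
theorem pkgNilAsm (hB4 : PkgSylCentral.{u}) (hPP : PkgPP.{u}) : PkgNilAsm.{u} := by
  intro G _ _ p q hp hq _ hNp hNq hcls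
  obtain ⟨P, Np, hNpn, hNpc⟩ := hNp
  obtain ⟨Q, Nq, hNqn, hNqc⟩ := hNq
  have hfp : Fact p.Prime := ⟨hp⟩
  have hfq : Fact q.Prime := ⟨hq⟩
  have hcNp : ¬ p ∣ Nat.card Np := by
    rw [← hNpc.index_eq_card]
    exact P.not_dvd_index
  have hcNq : ¬ q ∣ Nat.card Nq := by
    rw [← hNqc.index_eq_card]
    exact Q.not_dvd_index
  have hnilp : Group.IsNilpotent (G ⧸ Np) := by
    obtain ⟨a, ha⟩ := IsPGroup.iff_card.1 P.2
    have hc : Nat.card (G ⧸ Np) = p ^ a := by
      rw [← Subgroup.index_eq_card, hNpc.symm.index_eq_card, ← ha]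
    exact (IsPGroup.of_card hc).isNilpotent
  have hnilq : Group.IsNilpotent (G ⧸ Nq) := by
    obtain ⟨a, ha⟩ := IsPGroup.iff_card.1 Q.2
    have hc : Nat.card (G ⧸ Nq) = q ^ a := by
      rw [← Subgroup.index_eq_card, hNqc.symm.index_eq_card, ← ha]
    exact (IsPGroup.of_card hc).isNilpotent
  have hnil : Group.IsNilpotent ((G ⧸ Np) × (G ⧸ Nq)) := inferInstance
  refine Subgroup.isNilpotent_of_ker_le_center
    ((QuotientGroup.mk' Np).prod (QuotientGroup.mk' Nq)) ?_
  intro x hx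
  rw [MonoidHom.ker_prod, QuotientGroup.ker_mk', QuotientGroup.ker_mk', Subgroup.mem_inf] at hx
  apply nilasm_central hB4 hPP p q hcls x
  · intro h
    exact hcNp (dvd_trans h (Subgroup.orderOf_dvd_natCard Np hx.1))
  · intro h
    exact hcNq (dvd_trans h (Subgroup.orderOf_dvd_natCard Nq hx.2))

end Cfsg.Agent.Lib.Helper45.CS4
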